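import Mathlib

/-!
# Regular unitriangular matrices

Block matrices with a distinguished first row and column, regular upper and lower unitriangular
matrices, and their similarity to the Jordan block.
-/

set_option autoImplicit false

namespace CfsgLib.UnipProd

open Matrix

variable {K : Type*} [Field K]

/-- A matrix from a corner, a first row, a first column and the remaining block. -/
def cons2 {k : ℕ} (a : K) (c r : Fin k → K) (N : Matrix (Fin k) (Fin k) K) :
    Matrix (Fin (k + 1)) (Fin (k + 1)) K :=
  Matrix.of fun i j => Fin.cases (Fin.cases a c j) (fun i' => Fin.cases (r i') (N i') j) i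

section cons2

variable {k : ℕ} (a : K) (c r : Fin k → K) (N : Matrix (Fin k) (Fin k) K)

@[simp] theorem cons2_zero_zero : cons2 a c r N 0 0 = a := rfl

@[simp] theorem cons2_zero_succ (j : Fin k) : cons2 a c r N 0 j.succ = c j := rfl

@[simp] theorem cons2_succ_zero (i : Fin k) : cons2 a c r N i.succ 0 = r i := rfl

@[simp] theorem cons2_succ_succ (i j : Fin k) : cons2 a c r N i.succ j.succ = N i j := rfl

theorem cons2_mul (a' : K) (c' r' : Fin k → K) (N' : Matrix (Fin k) (Fin k) K) :
    cons2 a c r N * cons2 a' c' r' N' =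
      cons2 (a * a' + c ⬝ᵥ r') (a • c' + c ᵥ* N') (a' • r + N *ᵥ r') (vecMulVec r c' + N * N') := by
  ext i j
  refine Fin.cases (Fin.cases ?_ (fun j => ?_) j) (fun i => Fin.cases ?_ (fun j => ?_) j) i <;>
    simp [Matrix.mul_apply, Fin.sum_univ_succ, dotProduct, vecMul, mulVec, vecMulVec_apply,
      mul_comm]

theorem det_cons2_zero_col : (cons2 a c 0 N).det = a * N.det := by
  rw [Matrix.det_succ_column_zero, Fin.sum_univ_succ]
  simp only [cons2_succ_zero, Pi.zero_apply, mul_zero, zero_mul, Finset.sum_const_zero, add_zero,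
    cons2_zero_zero, Fin.val_zero, pow_zero, one_mul]
  congr 1

theorem det_cons2_zero_row : (cons2 a 0 r N).det = a * N.det := by
  rw [Matrix.det_succ_row_zero, Fin.sum_univ_succ]
  simp only [cons2_zero_succ, Pi.zero_apply, mul_zero, zero_mul, Finset.sum_const_zero, add_zero,
    cons2_zero_zero, Fin.val_zero, pow_zero, one_mul]
  congr 1

end cons2

/-- Upper unitriangular with non-zero superdiagonal. -/
def UpReg {n : ℕ} (U : Matrix (Fin n) (Fin n) K) : Prop :=
  (∀ i, U i i = 1) ∧ (∀ i j, j < i → U i j = 0) ∧
    ∀ i j : Fin n, j.val = i.val + 1 → U i j ≠ 0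

/-- Lower unitriangular with non-zero subdiagonal. -/
def LowReg {n : ℕ} (L : Matrix (Fin n) (Fin n) K) : Prop :=
  (∀ i, L i i = 1) ∧ (∀ i j, i < j → L i j = 0) ∧
    ∀ i j : Fin n, i.val = j.val + 1 → L i j ≠ 0

theorem upReg_cons2 {k : ℕ} {U : Matrix (Fin (k + 1)) (Fin (k + 1)) K} (hU : UpReg U)
    (c : Fin (k + 1) → K) (hc : c 0 ≠ 0) : UpReg (cons2 1 c 0 U) := by
  refine ⟨fun i => ?_, fun i j h => ?_, fun i j h => ?_⟩
  · refine Fin.cases ?_ (fun i => ?_) i <;> simp [hU.1]
  · induction i using Fin.cases with
    | zero => simp at h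
    | succ i =>
      induction j using Fin.cases with
      | zero => simp
      | succ j => simpa using hU.2.1 i j (Fin.succ_lt_succ_iff.mp h)
  · induction j using Fin.cases with
    | zero => simp at h
    | succ j =>
      induction i using Fin.cases with
      | zero =>
        simp only [Fin.val_succ, Fin.val_zero, zero_add, add_eq_right] at h
        have : j = 0 := Fin.ext h
        rw [this, cons2_zero_succ]; exact hc
      | succ i => simpa using hU.2.2 i j (by simpa using h)

theorem lowReg_transpose {n : ℕ} {L : Matrix (Fin n) (Fin n) K} (hL : LowReg L) : UpReg Lᵀ :=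
  ⟨fun i => hL.1 i, fun i j h => hL.2.1 j i h, fun i j h => hL.2.2 j i h⟩

theorem lowReg_cons2 {k : ℕ} {L : Matrix (Fin (k + 1)) (Fin (k + 1)) K} (hL : LowReg L)
    (r : Fin (k + 1) → K) (hr : r 0 ≠ 0) : LowReg (cons2 1 0 r L) := by
  have h := upReg_cons2 (lowReg_transpose hL) r hr
  have e : ∀ i j, cons2 1 r 0 Lᵀ i j = cons2 1 0 r L j i := by
    intro i j
    refine Fin.cases (Fin.cases ?_ (fun j => ?_) j) (fun i => Fin.cases ?_ (fun j => ?_) j) i <;> simp
  exact ⟨fun i => e i i ▸ h.1 i, fun i j hij => e j i ▸ h.2.1 j i hij,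
    fun i j hij => e j i ▸ h.2.2 j i hij⟩

/-- The Jordan block with eigenvalue one. -/
def jordan (n : ℕ) : Matrix (Fin n) (Fin n) K :=
  Matrix.of fun i j => if i = j then 1 else if j.val = i.val + 1 then 1 else 0

theorem upReg_similar {n : ℕ} {U : Matrix (Fin n) (Fin n) K} (hU : UpReg U) :
    ∃ x : Matrix (Fin n) (Fin n) K, x.det ≠ 0 ∧ U * x = x * jordan n := by
  rcases n with _ | m
  · exact ⟨1, by simp, Subsingleton.elim _ _⟩
  set N := U - 1 with hN
  have hN0 : ∀ i j, j ≤ i → N i j = 0 := by
    intro i j h
    rcases h.lt_or_eq with h | rfl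
    · rw [hN, Matrix.sub_apply, hU.2.1 i j h, Matrix.one_apply_ne h.ne', sub_zero]
    · rw [hN, Matrix.sub_apply, hU.1, Matrix.one_apply_eq, sub_self]
  let e : Fin (m + 1) → K := Pi.single (Fin.last m) 1
  let w : ℕ → Fin (m + 1) → K := fun k =>
    Nat.rec (motive := fun _ => Fin (m + 1) → K) e (fun _ v => N *ᵥ v) k
  have hw : ∀ k, (∀ i : Fin (m + 1), m < i.val + k → w k i = 0) ∧
      ∀ i : Fin (m + 1), i.val + k = m → w k i ≠ 0 := by
    intro k
    induction k with
    | zero =>
      refine ⟨fun i h => absurd h (by omega), fun i h => ?_⟩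
      have : i = Fin.last m := Fin.ext (by simpa using h)
      simp [w, e, this]
    | succ k ih =>
      refine ⟨fun i h => ?_, fun i h => ?_⟩
      · show ∑ j, N i j * w k j = 0
        refine Finset.sum_eq_zero fun j _ => ?_
        by_cases hj : j ≤ i
        · rw [hN0 i j hj, zero_mul]
        · rw [ih.1 j (by push Not at hj; rw [Fin.lt_def] at hj; omega), mul_zero]
      · show (N *ᵥ w k) i ≠ 0
        have hi : i.val + 1 < m + 1 := by omega
        rw [mulVec, dotProduct, Finset.sum_eq_single ⟨i.val + 1, hi⟩]
        · refine mul_ne_zero ?_ (ih.2 _ (by simp; omega))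
          rw [hN, Matrix.sub_apply, Matrix.one_apply_ne, sub_zero]
          · exact hU.2.2 _ _ rfl
          · exact fun e => by simpa using congrArg Fin.val e
        · intro j _ hj
          by_cases hji : j ≤ i
          · rw [hN0 i j hji, zero_mul]
          · push Not at hji
            rw [Fin.lt_def] at hji
            have : j.val ≠ i.val + 1 := fun e => hj (Fin.ext e)
            rw [ih.1 j (by omega), mul_zero]
        · exact fun h => absurd (Finset.mem_univ _) h
  set x : Matrix (Fin (m + 1)) (Fin (m + 1)) K := Matrix.of fun i j => w (m - j.val) i with hx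
  have htri : x.BlockTriangular id := fun i j h => (hw _).1 i (by
    have := j.isLt
    simp only [id, Fin.lt_def] at h
    omega)
  refine ⟨x, ?_, ?_⟩
  · rw [Matrix.det_of_upperTriangular htri, Finset.prod_ne_zero_iff]
    exact fun i _ => (hw _).2 i (by have := i.isLt; omega)
  · have hU' : U = 1 + N := by rw [hN, add_sub_cancel]
    rw [hU', add_mul, one_mul]
    ext i j
    rw [Matrix.add_apply]
    have h1 : (N * x) i j = w (m - j.val + 1) i := rfl
    rw [h1, Matrix.mul_apply]
    by_cases hj : j.val = 0
    · rw [(hw (m - j.val + 1)).1 i (by omega), add_zero, Finset.sum_eq_single j, jordan, Matrix.of_apply,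
        if_pos rfl, mul_one]
      · intro k _ hk
        simp only [jordan, Matrix.of_apply, if_neg hk]
        rw [if_neg (by omega), mul_zero]
      · exact fun h => absurd (Finset.mem_univ _) h
    · have hp : j.val - 1 < m + 1 := by omega
      rw [Finset.sum_eq_add (⟨j.val - 1, hp⟩ : Fin (m + 1)) j]
      · have hne : (⟨j.val - 1, hp⟩ : Fin (m + 1)) ≠ j := fun e => by
          have := congrArg Fin.val e; simp at this; omega
        simp only [hx, jordan, Matrix.of_apply, if_neg hne, if_true]
        rw [if_pos (by omega), mul_one, mul_one, add_comm]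
        have := j.isLt
        rw [show m - j.val + 1 = m - (j.val - 1) by omega]
      · exact fun e => by have := congrArg Fin.val e; simp at this; omega
      · intro k _ hk
        simp only [jordan, Matrix.of_apply, if_neg hk.2]
        rw [if_neg (fun e => hk.1 (Fin.ext (by simp; omega))), mul_zero]
      · exact fun h => absurd (Finset.mem_univ _) h
      · exact fun h => absurd (Finset.mem_univ _) h

theorem lowReg_similar {n : ℕ} {L : Matrix (Fin n) (Fin n) K} (hL : LowReg L) :
    ∃ x : Matrix (Fin n) (Fin n) K, x.det ≠ 0 ∧ L * x = x * jordan n := by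
  have h : UpReg (L.submatrix Fin.revPerm Fin.revPerm) := by
    refine ⟨fun i => hL.1 _, fun i j h => hL.2.1 _ _ (Fin.rev_lt_rev.mpr h),
      fun i j h => hL.2.2 _ _ ?_⟩
    simp [Fin.val_rev]
    omega
  obtain ⟨x, hx, hxe⟩ := upReg_similar h
  refine ⟨x.submatrix Fin.revPerm id, ?_, ?_⟩
  · rw [Matrix.det_permute]
    refine mul_ne_zero ?_ hx
    rcases Int.units_eq_one_or (Equiv.Perm.sign (Fin.revPerm (n := n))) with e | e <;> simp [e]
  · ext i j
    have := congrFun (congrFun hxe (Fin.revPerm i)) j
    rw [Matrix.mul_apply, ← Equiv.sum_comp Fin.revPerm] at this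
    simp only [Matrix.submatrix_apply, Fin.revPerm_apply, Fin.rev_rev] at this
    rw [Matrix.mul_apply]
    simpa [Matrix.mul_apply] using this

/-- The inverse of the Jordan block. -/
def jordanInv (n : ℕ) : Matrix (Fin n) (Fin n) K :=
  Matrix.of fun i j => if i ≤ j then (-1) ^ (j.val - i.val) else 0

theorem jordan_mul_jordanInv (n : ℕ) : (jordan n : Matrix (Fin n) (Fin n) K) * jordanInv n = 1 := by
  ext i j
  rw [Matrix.mul_apply]
  by_cases hi : i.val + 1 < n
  · rw [Finset.sum_eq_add i (⟨i.val + 1, hi⟩ : Fin n)]
    · have hne : i ≠ (⟨i.val + 1, hi⟩ : Fin n) := fun e => by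
        have := congrArg Fin.val e; simp at this
      simp only [jordan, jordanInv, Matrix.of_apply, if_pos rfl, if_neg hne, one_mul]
      rcases lt_trichotomy i j with h | h | h
      · rw [Matrix.one_apply_ne h.ne, if_pos h.le, if_pos (show (⟨i.val + 1, hi⟩ : Fin n) ≤ j from h)]
        rw [Fin.lt_def] at h
        rw [show j.val - i.val = (j.val - (i.val + 1)) + 1 by omega, pow_succ]
        simp
      · subst h
        rw [Matrix.one_apply_eq, if_pos le_rfl,
          if_neg (show ¬ (⟨i.val + 1, hi⟩ : Fin n) ≤ i from Nat.not_succ_le_self _)]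
        simp
      · rw [Matrix.one_apply_ne h.ne', if_neg h.not_ge, if_neg (show ¬ (⟨i.val + 1, hi⟩ : Fin n) ≤ j from
          fun h' => by rw [Fin.le_def] at h'; rw [Fin.lt_def] at h; simp at h'; omega)]
        simp
    · exact fun e => by have := congrArg Fin.val e; simp at this
    · intro k _ hk
      simp only [jordan, Matrix.of_apply, if_neg hk.1.symm]
      rw [if_neg (fun e => hk.2 (Fin.ext (by simp; omega))), zero_mul]
    · exact fun h => absurd (Finset.mem_univ _) h
    · exact fun h => absurd (Finset.mem_univ _) h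
  · rw [Finset.sum_eq_single i]
    · simp only [jordan, jordanInv, Matrix.of_apply, if_pos rfl, one_mul]
      rcases lt_trichotomy i j with h | h | h
      · rw [Fin.lt_def] at h; omega
      · subst h; simp
      · rw [Matrix.one_apply_ne h.ne', if_neg h.not_ge]
        simp
    · intro k _ hk
      simp only [jordan, Matrix.of_apply, if_neg hk.symm]
      rw [if_neg (by omega), zero_mul]
    · exact fun h => absurd (Finset.mem_univ _) h

theorem upReg_jordan (n : ℕ) : UpReg (jordan n : Matrix (Fin n) (Fin n) K) := by
  refine ⟨fun i => by simp [jordan], fun i j h => ?_, fun i j h => ?_⟩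
  · rw [Fin.lt_def] at h
    simp only [jordan, Matrix.of_apply]
    rw [if_neg (fun e => by rw [e] at h; omega), if_neg (by omega)]
  · simp only [jordan, Matrix.of_apply]
    rw [if_neg (fun e => by rw [e] at h; omega), if_pos h]
    exact one_ne_zero

theorem det_jordan (n : ℕ) : (jordan n : Matrix (Fin n) (Fin n) K).det = 1 := by
  rw [Matrix.det_of_upperTriangular (fun i j h => (upReg_jordan n).2.1 i j h)]
  exact Finset.prod_eq_one fun i _ => (upReg_jordan n).1 i

/-- A transvection in the first superdiagonal position is a product of two regular ones. -/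
theorem transvection_factor {m : ℕ} {t : K} (ht : t ≠ 1) :
    ∃ U : Matrix (Fin (m + 2)) (Fin (m + 2)) K, UpReg U ∧
      jordan (m + 2) * U = 1 + t • Matrix.single 0 1 1 := by
  refine ⟨jordanInv (m + 2) * (1 + t • Matrix.single 0 1 1), ?_, ?_⟩
  · have e : ∀ i j : Fin (m + 2), (jordanInv (m + 2) * (1 + t • Matrix.single 0 1 1) :
        Matrix (Fin (m + 2)) (Fin (m + 2)) K) i j =
          jordanInv (m + 2) i j + (if j = 1 then t * jordanInv (m + 2) i 0 else 0) := by
      intro i j
      rw [mul_add, mul_one, Matrix.add_apply, Matrix.mul_smul, Matrix.smul_apply, smul_eq_mul]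
      congr 1
      split_ifs with h
      · subst h
        rw [Matrix.mul_single_apply_same, mul_one]
      · rw [Matrix.mul_single_apply_of_ne _ _ _ _ _ h, mul_zero]
    have hJ0 : ∀ i : Fin (m + 2), i ≠ 0 → jordanInv (m + 2) i 0 = (0 : K) := fun i hi => by
      simp only [jordanInv, Matrix.of_apply]
      rw [if_neg (fun h => hi (le_antisymm h (Fin.zero_le _)))]
    refine ⟨fun i => ?_, fun i j h => ?_, fun i j h => ?_⟩
    · rw [e]
      simp only [jordanInv, Matrix.of_apply, le_refl, if_true, Nat.sub_self, pow_zero]
      split_ifs with h1 h2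
      · exfalso
        rw [h1] at h2
        simp [Fin.le_def] at h2
      · simp
      · simp
    · rw [e]
      have h0 : i ≠ 0 := fun e => by rw [e] at h; simp at h
      rw [hJ0 i h0]
      simp [jordanInv, h.not_ge]
    · rw [e]
      have hle : i ≤ j := by rw [Fin.le_def]; omega
      by_cases hj : j = 1
      · have hi : i = 0 := by
          rw [hj] at h; simp at h
          exact Fin.ext (by simp; omega)
        subst hi hj
        simp [jordanInv]
        intro h'
        exact ht (by linear_combination h')
      · rw [if_neg hj, add_zero]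
        simp only [jordanInv, Matrix.of_apply, if_pos hle]
        exact pow_ne_zero _ (by simp)
  · rw [← Matrix.mul_assoc, jordan_mul_jordanInv, Matrix.one_mul]

end CfsgLib.UnipProd
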