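import Cfsg.Agent.UnipProd.Step
import Cfsg.Agent.UnipProd.Tri

/-!
# Determinant one matrices as products of two regular unipotent matrices

By induction on the size: a non-scalar matrix `M` of determinant one with `M - 1` of rank at least
two is similar to `L U` with `L`, `U` regular unitriangular.
-/

set_option autoImplicit false

namespace CfsgLib.UnipProd

open Matrix Cardinal Module

variable {K : Type*} [Field K]

/-- Neither scalar nor a pseudo-reflection shifted from the identity. -/
def Good {n : ℕ} (M : Matrix (Fin n) (Fin n) K) : Prop :=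
  (¬ ∃ μ : K, M = μ • (1 : Matrix (Fin n) (Fin n) K)) ∧
    ¬ ∃ a b : Fin n → K, M - 1 = vecMulVec a b

theorem rank_two_of_good {n : ℕ} {M : Matrix (Fin n) (Fin n) K} (h : ¬ ∃ a b, M - 1 = vecMulVec a b) :
    2 ≤ finrank K (LinearMap.range (shift M.mulVecLin 1)) := by
  by_contra hr
  push Not at hr
  set A := shift M.mulVecLin 1 with hA
  have happ : ∀ x, A x = (M - 1) *ᵥ x := fun x => by
    rw [hA, shift_apply, one_smul, Matrix.mulVecLin_apply, Matrix.sub_mulVec, Matrix.one_mulVec]
  obtain ⟨⟨a, _⟩, ha⟩ := finrank_le_one_iff.mp (Nat.lt_succ_iff.mp hr)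
  choose b hb using fun j : Fin n => ha ⟨A (Pi.single j 1), LinearMap.mem_range_self _ _⟩
  refine h ⟨a, b, ?_⟩
  ext i j
  have := congrFun (congrArg Subtype.val (hb j)) i
  simp only [SetLike.mk_smul_mk, Pi.smul_apply, smul_eq_mul] at this
  rw [happ, Matrix.mulVec_single_one] at this
  rw [vecMulVec_apply, mul_comm]
  exact this.symm

theorem exists_factor (h4 : 4 ≤ #K) : ∀ (k : ℕ) (M : Matrix (Fin (k + 1)) (Fin (k + 1)) K),
    M.det = 1 → (1 ≤ k → Good M) → ∀ r c : Fin (k + 1) → K, r ≠ 0 → c ≠ 0 →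
      ∃ (S L U : Matrix (Fin (k + 1)) (Fin (k + 1)) K) (r' : Fin (k + 1) → K), S.det ≠ 0 ∧
        LowReg L ∧ UpReg U ∧ M * S = S * (L * U) ∧ r = S *ᵥ r' ∧ r' 0 ≠ 0 ∧ (c ᵥ* S) 0 ≠ 0
  | 0, M, hdet, _, r, c, hr, hc => by
    have hM : M = 1 := by
      ext i j
      rw [Matrix.det_fin_one] at hdet
      rw [(Fin.ext (by omega) : i = 0), (Fin.ext (by omega) : j = 0), hdet]
      rfl
    have hone : ∀ i j : Fin (0 + 1), ¬ i < j := fun i j => by rw [Fin.lt_def]; omega
    refine ⟨1, 1, 1, r, by simp, ⟨fun i => one_apply_eq i, fun i j h => absurd h (hone i j),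
      fun i j h => by omega⟩, ⟨fun i => one_apply_eq i, fun i j h => absurd h (hone j i),
      fun i j h => by omega⟩, by simp [hM], (one_mulVec r).symm, fun h => hr ?_, fun h => hc ?_⟩
    · funext i; rw [(Fin.ext (by omega) : i = 0)]; exact h
    · funext i; rw [(Fin.ext (by omega) : i = 0)]; simpa using h
  | k + 1, M, hdet, hgood, r, c, hr, hc => by
    obtain ⟨hns, hbig⟩ := hgood (by omega)
    set f := M.mulVecLin with hf
    let cf : (Fin (k + 2) → K) →ₗ[K] K :=
      { toFun := fun x => c ⬝ᵥ x, map_add' := dotProduct_add c,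
        map_smul' := fun t x => dotProduct_smul t c x }
    have hcf : cf ≠ 0 := fun h => hc (funext fun i => by
      have := LinearMap.congr_fun h (Pi.single i 1)
      simpa [cf] using this)
    have hfdet : LinearMap.det f = 1 := by
      rw [hf, ← Matrix.toLin'_apply', LinearMap.det_toLin', hdet]
    have hns' : ¬ ∃ μ : K, ∀ x, f x = μ • x := by
      rintro ⟨μ, hμ⟩
      refine hns ⟨μ, Matrix.ext fun i j => ?_⟩
      have := congrFun (hμ (Pi.single j 1)) i
      rw [hf, Matrix.mulVecLin_apply, Matrix.mulVec_single_one] at this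
      simpa [Pi.single_apply, Matrix.one_apply] using this
    obtain ⟨v, φ, hv, hfv, hφr, hcv, hne, ⟨w₀, hw₀, hw₀'⟩, hnsN, hbigN⟩ :=
      exists_step h4 f (m := k + 1) (by omega) (by simp) hfdet hns' (rank_two_of_good hbig) hr cf hcf
    -- a basis of the kernel
    set W := LinearMap.ker φ with hW
    have hWdim : finrank K W = k + 1 := by
      have h1 := LinearMap.finrank_range_add_finrank_ker φ
      have h2 : LinearMap.range φ = ⊤ := LinearMap.range_eq_top.mpr fun t => ⟨t • v, by simp [hv]⟩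
      rw [h2, finrank_top, finrank_self, Module.finrank_fin_fun, ← hW] at h1
      omega
    let b : Basis (Fin (k + 1)) K W := Module.finBasisOfFinrankEq K W hWdim
    have hbW : ∀ j, φ (b j : Fin (k + 2) → K) = 0 := fun j => (b j).2
    let Nl : W →ₗ[K] W :=
      { toFun := fun w => ⟨f w.1 - φ (f w.1) • f v, by simp [hW, hfv]⟩
        map_add' := fun x y => Subtype.ext (by
          simp only [Submodule.coe_add, map_add]; module)
        map_smul' := fun t x => Subtype.ext (by
          simp only [SetLike.val_smul, map_smul, RingHom.id_apply, smul_eq_mul, mul_smul]; module) }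
    set N := LinearMap.toMatrix b b Nl with hN
    set r₁ : Fin (k + 1) → K := ⇑(b.repr ⟨f v - v, by simp [hW, hv, hfv]⟩) with hr₁
    set c₁ : Fin (k + 1) → K := fun j => φ (f (b j : Fin (k + 2) → K)) with hc₁
    let P : Matrix (Fin (k + 2)) (Fin (k + 2)) K :=
      Matrix.of fun i j => Fin.cases (v i) (fun j' => (b j' : Fin (k + 2) → K) i) j
    have hPmul : ∀ (x : Fin (k + 2) → K), P *ᵥ x =
        x 0 • v + (∑ j, x j.succ • b j : W).1 := by
      intro x
      funext i
      simp [P, mulVec, dotProduct, Fin.sum_univ_succ, mul_comm]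
    have hsum : ∀ (u : W), ((∑ j, b.repr u j • b j : W) : Fin (k + 2) → K) = u :=
      fun u => congrArg Subtype.val (b.sum_repr u)
    have hcol : ∀ (Q : Matrix (Fin (k + 2)) (Fin (k + 2)) K) j i,
        (P * Q) i j = (P *ᵥ fun l => Q l j) i := fun Q j i => rfl
    have hMP : M * P = P * cons2 1 c₁ r₁ (vecMulVec r₁ c₁ + N) := by
      ext i j
      rw [hcol, hPmul]
      refine Fin.cases ?_ (fun j => ?_) j
      · simp only [cons2_zero_zero, cons2_succ_zero, one_smul, hr₁, hsum]
        rw [add_sub_cancel]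
        rfl
      · simp only [cons2_zero_succ, cons2_succ_succ, Matrix.add_apply, vecMulVec_apply]
        have e : (∑ l, (r₁ l * c₁ j + N l j) • b l : W) =
            c₁ j • (⟨f v - v, by simp [hW, hv, hfv]⟩ : W) + Nl (b j) := by
          simp_rw [add_smul]
          rw [Finset.sum_add_distrib]
          congr 1
          · conv_rhs => rw [← b.sum_repr (⟨f v - v, _⟩ : W), Finset.smul_sum]
            exact Finset.sum_congr rfl fun l _ => by rw [smul_smul, mul_comm]
          · conv_rhs => rw [← b.sum_repr (Nl (b j))]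
            exact Finset.sum_congr rfl fun l _ => by rw [hN, LinearMap.toMatrix_apply]
        rw [e]
        have : (c₁ j • v + ((c₁ j • (⟨f v - v, by simp [hW, hv, hfv]⟩ : W) + Nl (b j) : W) :
            Fin (k + 2) → K)) = f (b j : Fin (k + 2) → K) := by
          simp only [Submodule.coe_add, SetLike.val_smul, Nl, hc₁, LinearMap.coe_mk, AddHom.coe_mk]
          module
        rw [this]
        rfl
    have hP : P.det ≠ 0 := by
      intro h
      obtain ⟨x, hx0, hx⟩ := Matrix.exists_mulVec_eq_zero_iff.mpr h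
      rw [hPmul] at hx
      have h0 : x 0 = 0 := by simpa [hv, hbW] using congrArg φ hx
      rw [h0, zero_smul, zero_add] at hx
      have hli := Fintype.linearIndependent_iff.mp b.linearIndependent (fun j => x j.succ)
        (Subtype.ext hx)
      exact hx0 (funext fun i => Fin.cases h0 hli i)
    have hNdet : N.det = 1 := by
      have h := congrArg Matrix.det hMP
      have e : cons2 1 c₁ r₁ (vecMulVec r₁ c₁ + N) = cons2 1 0 r₁ 1 * cons2 1 c₁ 0 N := by
        rw [cons2_mul]
        simp
      rw [Matrix.det_mul, Matrix.det_mul, hdet, e, Matrix.det_mul, det_cons2_zero_row,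
        det_cons2_zero_col, Matrix.det_one] at h
      simp only [one_mul, mul_one] at h
      exact mul_left_cancel₀ hP (by rw [mul_one]; exact h.symm)
    have hNapp : ∀ (x : W) i, b.repr (Nl x) i = (N *ᵥ ⇑(b.repr x)) i := fun x i => by
      rw [hN, LinearMap.toMatrix_mulVec_repr]
    have hgoodN : 1 ≤ k → Good N := by
      intro hk
      refine ⟨?_, ?_⟩
      · rintro ⟨μ, hμ⟩
        refine hnsN (by omega) ⟨μ, ?_, fun w hw => ?_⟩
        · rw [hμ, Matrix.det_smul, Matrix.det_one, mul_one, Fintype.card_fin] at hNdet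
          exact hNdet
        · have h : Nl ⟨w, hw⟩ = μ • (⟨w, hw⟩ : W) := by
            refine b.repr.injective (Finsupp.ext fun i => ?_)
            rw [hNapp, hμ, map_smul, Matrix.smul_mulVec, Matrix.one_mulVec]
            rfl
          exact congrArg Subtype.val h
      · rintro ⟨a, ψ, hab⟩
        refine hbigN (by omega) ⟨((∑ l, a l • b l : W) : Fin (k + 2) → K), fun w hw =>
          ⟨ψ ⬝ᵥ ⇑(b.repr ⟨w, hw⟩), ?_⟩⟩
        have h : Nl ⟨w, hw⟩ - ⟨w, hw⟩ = (ψ ⬝ᵥ ⇑(b.repr ⟨w, hw⟩)) • (∑ l, a l • b l : W) := by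
          refine b.repr.injective (Finsupp.ext fun i => ?_)
          rw [map_sub, Finsupp.sub_apply, hNapp, map_smul, Finsupp.smul_apply,
            b.repr_sum_self]
          have := congrFun (congrArg (fun Z : Matrix _ _ K => Z *ᵥ ⇑(b.repr ⟨w, hw⟩)) hab) i
          simp only [Matrix.sub_mulVec, Matrix.one_mulVec, Pi.sub_apply] at this
          rw [this]
          simp [Matrix.vecMulVec_mulVec, mul_comm]
        exact congrArg Subtype.val h
    have hr₁ne : r₁ ≠ 0 := fun h => hne (by
      have h0 : b.repr (⟨f v - v, by simp [hW, hv, hfv]⟩ : W) = 0 := Finsupp.ext (congrFun h)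
      exact sub_eq_zero.mp (congrArg Subtype.val (b.repr.map_eq_zero_iff.mp h0)))
    have hc₁ne : c₁ ≠ 0 := fun h => hw₀' (by
      have e := congrArg (fun x => φ (f x)) (hsum (⟨w₀, hw₀⟩ : W))
      simp only at e
      rw [← e, AddSubmonoidClass.coe_finset_sum, map_sum, map_sum]
      refine Finset.sum_eq_zero fun j _ => ?_
      rw [SetLike.val_smul, map_smul, map_smul, show φ (f (b j : Fin (k + 2) → K)) = 0 from
        congrFun h j, smul_zero])
    obtain ⟨S, L, U, r₃, hS, hL, hU, hNS, hr₃, hr₃0, hc₃⟩ :=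
      exists_factor h4 k N hNdet hgoodN r₁ c₁ hr₁ne hc₁ne
    set Sb : Matrix (Fin (k + 2)) (Fin (k + 2)) K := cons2 1 0 0 S with hSb
    set ρ : Fin (k + 1) → K := ⇑(b.repr ⟨r - φ r • v, by simp [hW, hv]⟩) with hρ
    have hSu : IsUnit S.det := isUnit_iff_ne_zero.mpr hS
    refine ⟨P * Sb, cons2 1 0 r₃ L, cons2 1 (c₁ ᵥ* S) 0 U, Fin.cases (φ r) (S⁻¹ *ᵥ ρ), ?_,
      lowReg_cons2 hL r₃ hr₃0, upReg_cons2 hU _ hc₃, ?_, ?_, ?_, ?_⟩
    · rw [Matrix.det_mul, hSb, det_cons2_zero_row, one_mul]
      exact mul_ne_zero hP hS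
    · rw [← Matrix.mul_assoc, hMP, Matrix.mul_assoc, Matrix.mul_assoc]
      congr 1
      rw [hSb, cons2_mul, cons2_mul, cons2_mul]
      congr 1
      · simp
      · simp
      · simp [hr₃]
      · simp only [vecMulVec_zero, zero_add, Matrix.add_mul, Matrix.mul_add, hNS, Matrix.mul_vecMulVec,
          ← hr₃, Matrix.vecMulVec_mul]
        simp
    · rw [← Matrix.mulVec_mulVec]
      have e : Sb *ᵥ (Fin.cases (φ r) (S⁻¹ *ᵥ ρ) : Fin (k + 2) → K) = Fin.cases (φ r) ρ := by
        funext i
        refine Fin.cases ?_ (fun i => ?_) i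
        · simp [hSb, mulVec, dotProduct, Fin.sum_univ_succ]
        · have : (Sb *ᵥ (Fin.cases (φ r) (S⁻¹ *ᵥ ρ) : Fin (k + 2) → K)) i.succ =
              (S *ᵥ (S⁻¹ *ᵥ ρ)) i := by simp [hSb, mulVec, dotProduct, Fin.sum_univ_succ]
          rw [this, Matrix.mulVec_mulVec, Matrix.mul_nonsing_inv _ hSu, Matrix.one_mulVec]
          rfl
      rw [e, hPmul]
      simp [hρ, hsum]
    · exact hφr
    · have e : ((c ᵥ* (P * Sb)) : Fin (k + 2) → K) 0 = c ⬝ᵥ v := by
        rw [← Matrix.vecMul_vecMul]
        simp [hSb, P, vecMul, dotProduct, Fin.sum_univ_succ]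
      rw [e]
      exact hcv

end CfsgLib.UnipProd
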