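import Mathlib

/-!
# One step of a triangular factorisation with prescribed pivots

For a non-scalar determinant one map `f` with `f - 1` of rank at least two, we choose a vector `v`
and a functional `φ` with `φ v = φ (f v) = 1` such that the compressed map on `ker φ` again has
these properties, avoiding given hyperplanes.
-/

set_option autoImplicit false

namespace CfsgLib.UnipProd

open Cardinal Module

variable {K V : Type*} [Field K] [AddCommGroup V] [Module K V]

theorem exists_notMem_finset (T : Finset K) (h : (T.card : Cardinal) < #K) : ∃ t, t ∉ T := by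
  by_contra hh
  push Not at hh
  let _ : Fintype K := ⟨T, hh⟩
  rw [Cardinal.mk_fintype, Nat.cast_lt] at h
  exact absurd h (lt_irrefl _)

/-- A vector space is not the union of at most `#K` proper subspaces. -/
theorem exists_notMem_list : ∀ (l : List (Submodule K V)), (l.length : Cardinal) ≤ #K →
    (∀ W ∈ l, W ≠ ⊤) → ∃ v : V, ∀ W ∈ l, v ∉ W
  | [], _, _ => ⟨0, by simp⟩
  | W₀ :: l, hl, hW => by
    classical
    have hlt : (l.length : Cardinal) < #K :=
      lt_of_lt_of_le (Nat.cast_lt.mpr (Nat.lt_succ_self _)) hl
    obtain ⟨v, hv⟩ := exists_notMem_list l hlt.le fun W h => hW W (List.mem_cons_of_mem _ h)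
    by_cases hv0 : v ∈ W₀
    · obtain ⟨u, hu⟩ : ∃ u, u ∉ W₀ := by
        by_contra hh
        push Not at hh
        exact hW W₀ (List.mem_cons_self ..) (eq_top_iff.mpr fun u _ => hh u)
      let f : Submodule K V → K := fun W =>
        if h : ∃ t : K, u + t • v ∈ W then h.choose else 0
      obtain ⟨t, ht⟩ := exists_notMem_finset (l.map f).toFinset
        (lt_of_le_of_lt (Nat.cast_le.mpr ((List.toFinset_card_le _).trans
          (le_of_eq (List.length_map _)))) hlt)
      refine ⟨u + t • v, fun W hW' hmem => ?_⟩
      rcases List.mem_cons.mp hW' with rfl | hW'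
      · exact hu (by simpa using W.sub_mem hmem (W.smul_mem t hv0))
      · have hex : ∃ t : K, u + t • v ∈ W := ⟨t, hmem⟩
        have hfW : f W = hex.choose := dif_pos hex
        have hne : t ≠ hex.choose := fun e =>
          ht (List.mem_toFinset.mpr (List.mem_map.mpr ⟨W, hW', by rw [hfW, e]⟩))
        have hd := W.sub_mem hmem hex.choose_spec
        rw [add_sub_add_left_eq_sub, ← sub_smul] at hd
        exact hv W hW' (by
          simpa [sub_ne_zero.mpr hne] using W.smul_mem (t - hex.choose)⁻¹ hd)
    · exact ⟨v, fun W h => (List.mem_cons.mp h).elim (fun e => e ▸ hv0) (hv W)⟩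

/-- A field with four elements has characteristic two. -/
theorem five_le_of_neg_one_ne (h4 : 4 ≤ #K) (h : (-1 : K) ≠ 1) : 5 ≤ #K := by
  by_contra h5
  push Not at h5
  haveI : Finite K := Cardinal.lt_aleph0_iff_finite.mp (h5.trans (Cardinal.natCast_lt_aleph0 (n := 5)))
  haveI := Fintype.ofFinite K
  rw [Cardinal.mk_fintype] at h4 h5
  have hc : Fintype.card K = 4 := by
    have h4' : 4 ≤ Fintype.card K := by exact_mod_cast h4
    have h5' : Fintype.card K < 5 := by exact_mod_cast h5
    omega
  have h0 := Nat.cast_card_eq_zero K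
  rw [hc] at h0
  have h2 : (2 : K) * 2 = 0 := by rw [← h0]; norm_num
  have h3 : (2 : K) = 0 := by simpa using h2
  exact h (by linear_combination (-1 : K) * h3)

/-- A functional killing `u`, taking the value one at `v` and non-zero at three further vectors. -/
theorem exists_functional (h4 : 4 ≤ #K) {u v a b c : V} (hv : v ∉ K ∙ u) (ha : a ∉ K ∙ u)
    (hb : b ∉ K ∙ u) (hc : c ∉ K ∙ u) :
    ∃ φ : V →ₗ[K] K, φ u = 0 ∧ φ v = 1 ∧ φ a ≠ 0 ∧ φ b ≠ 0 ∧ φ c ≠ 0 := by
  let D := (K ∙ u).dualAnnihilator
  let P : V → Submodule K D := fun x => LinearMap.ker ((Module.Dual.eval K V x).comp D.subtype)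
  have hP : ∀ x, x ∉ K ∙ u → P x ≠ ⊤ := by
    intro x hx htop
    obtain ⟨φ, hφx, hφ⟩ := Submodule.exists_dual_map_eq_bot_of_notMem hx inferInstance
    have hmem : φ ∈ D := (Submodule.mem_dualAnnihilator φ).mpr fun w hw => by
      have : φ w ∈ (K ∙ u).map φ := ⟨w, hw, rfl⟩
      rwa [hφ, Submodule.mem_bot] at this
    have : (⟨φ, hmem⟩ : D) ∈ P x := htop ▸ Submodule.mem_top
    exact hφx (by simpa [P] using this)
  obtain ⟨φ, hφ⟩ := exists_notMem_list (V := ↥D) [P v, P a, P b, P c] (by simpa using h4) (by
    intro W hW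
    simp only [List.mem_cons, List.not_mem_nil, or_false] at hW
    rcases hW with rfl | rfl | rfl | rfl <;> apply hP <;> assumption)
  have h : ∀ x, P x ∈ [P v, P a, P b, P c] → (φ : V →ₗ[K] K) x ≠ 0 := fun x hx h0 =>
    hφ _ hx (by simp [P, h0])
  have hv0 := h v (by simp)
  refine ⟨((φ : V →ₗ[K] K) v)⁻¹ • (φ : V →ₗ[K] K), ?_, ?_, ?_, ?_, ?_⟩
  · have := (Submodule.mem_dualAnnihilator _).mp φ.2 u (Submodule.mem_span_singleton_self u)
    simp [this]
  · simp [hv0]
  · simp [hv0, h a (by simp)]
  · simp [hv0, h b (by simp)]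
  · simp [hv0, h c (by simp)]

/-- The linear map `f - μ`. -/
def shift (f : V →ₗ[K] V) (μ : K) : V →ₗ[K] V := f - μ • LinearMap.id

theorem shift_apply (f : V →ₗ[K] V) (μ : K) (x : V) : shift f μ x = f x - μ • x := rfl

theorem eigen_mem_range (f : V →ₗ[K] V) {μ ν : K} (h : ν ≠ μ) {x : V} (hx : f x = ν • x) :
    x ∈ LinearMap.range (shift f μ) := by
  refine ⟨(ν - μ)⁻¹ • x, ?_⟩
  rw [map_smul, shift_apply, hx, ← sub_smul, smul_smul, inv_mul_cancel₀ (sub_ne_zero.mpr h),
    one_smul]

theorem range_ne_top [FiniteDimensional K V] (f : V →ₗ[K] V) {μ : K} {x : V} (hx0 : x ≠ 0)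
    (hx : f x = μ • x) : LinearMap.range (shift f μ) ≠ ⊤ := by
  intro h
  have hi := LinearMap.injective_iff_surjective.mpr (LinearMap.range_eq_top.mp h)
  exact hx0 (hi (by rw [shift_apply, hx, sub_self, map_zero]))

/-- `μ` is a bad multiplier when `f - μ` has range of dimension exactly two. -/
def BadMul (f : V →ₗ[K] V) (m : ℕ) (μ : K) : Prop :=
  μ ≠ 1 ∧ μ ^ m = 1 ∧ finrank K (LinearMap.range (shift f μ)) = 2

theorem finrank_ker [FiniteDimensional K V] (f : V →ₗ[K] V) {m : ℕ} (hm : finrank K V = m + 1)
    {μ : K} (h : BadMul f m μ) : finrank K (LinearMap.ker (shift f μ)) + 2 = m + 1 := by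
  have := LinearMap.finrank_range_add_finrank_ker (shift f μ)
  rw [h.2.2, hm] at this
  omega

theorem ker_shift_eq_eigenspace (f : V →ₗ[K] V) (μ : K) :
    LinearMap.ker (shift f μ) = Module.End.eigenspace f μ := by
  ext x
  rw [LinearMap.mem_ker, shift_apply, Module.End.mem_eigenspace_iff, sub_eq_zero]

theorem sum_ker_le [FiniteDimensional K V] (f : V →ₗ[K] V) {a b : K} (hab : a ≠ b) :
    finrank K (LinearMap.ker (shift f a)) + finrank K (LinearMap.ker (shift f b)) ≤
      finrank K V := by
  have hd : Disjoint (LinearMap.ker (shift f a)) (LinearMap.ker (shift f b)) := by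
    rw [Submodule.disjoint_def]
    intro x ha hb
    rw [LinearMap.mem_ker, shift_apply, sub_eq_zero] at ha hb
    have : (a - b) • x = 0 := by rw [sub_smul, ← ha, ← hb, sub_self]
    exact (smul_eq_zero.mp this).resolve_left (sub_ne_zero.mpr hab)
  rw [← Submodule.finrank_sup_add_finrank_inf_eq, hd.eq_bot, finrank_bot, add_zero]
  exact Submodule.finrank_le _

theorem sum_ker_three [FiniteDimensional K V] (f : V →ₗ[K] V) {a b c : K} (hab : a ≠ b)
    (hac : a ≠ c) (hbc : b ≠ c) :
    finrank K (LinearMap.ker (shift f a)) + finrank K (LinearMap.ker (shift f b)) +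
      finrank K (LinearMap.ker (shift f c)) ≤ finrank K V := by
  have hd : Disjoint (LinearMap.ker (shift f a) ⊔ LinearMap.ker (shift f b))
      (LinearMap.ker (shift f c)) := by
    rw [Submodule.disjoint_def]
    intro x hx hc
    obtain ⟨p, hp, q, hq, rfl⟩ := Submodule.mem_sup.mp hx
    rw [LinearMap.mem_ker, shift_apply, sub_eq_zero] at hp hq hc
    rw [map_add, hp, hq] at hc
    have h1 : (a - c) • p + (b - c) • q = 0 := by
      rw [sub_smul, sub_smul]
      linear_combination (norm := module) hc
    have h2 := congrArg f h1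
    rw [map_add, map_smul, map_smul, hp, hq, map_zero] at h2
    have h3 : ((a - c) * (a - b)) • p = 0 := by
      linear_combination (norm := module) h2 - b • h1
    have hp0 : p = 0 := (smul_eq_zero.mp h3).resolve_left
      (mul_ne_zero (sub_ne_zero.mpr hac) (sub_ne_zero.mpr hab))
    subst hp0
    have hq0 : q = 0 := (smul_eq_zero.mp (by simpa using h1 : (b - c) • q = 0)).resolve_left
      (sub_ne_zero.mpr hbc)
    simp [hq0]
  have hd2 : Disjoint (LinearMap.ker (shift f a)) (LinearMap.ker (shift f b)) := by
    rw [Submodule.disjoint_def]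
    intro x ha hb
    rw [LinearMap.mem_ker, shift_apply, sub_eq_zero] at ha hb
    have : (a - b) • x = 0 := by rw [sub_smul, ← ha, ← hb, sub_self]
    exact (smul_eq_zero.mp this).resolve_left (sub_ne_zero.mpr hab)
  have h := Submodule.finrank_sup_add_finrank_inf_eq (LinearMap.ker (shift f a))
    (LinearMap.ker (shift f b))
  rw [hd2.eq_bot, finrank_bot, add_zero] at h
  rw [← h, ← Submodule.finrank_sup_add_finrank_inf_eq, hd.eq_bot, finrank_bot, add_zero]
  exact Submodule.finrank_le _

theorem sq_eq_one_cases {x : K} (h : x ^ 2 = 1) (h1 : x ≠ 1) : x = -1 :=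
  (sq_eq_one_iff.mp h).resolve_left h1

/-- The choice of the vector and the functional. -/
theorem exists_step [FiniteDimensional K V] (h4 : 4 ≤ #K) (f : V →ₗ[K] V) {m : ℕ} (hm1 : 1 ≤ m)
    (hm : finrank K V = m + 1) (hdet : LinearMap.det f = 1)
    (hns : ¬ ∃ μ : K, ∀ x, f x = μ • x)
    (hbig : 2 ≤ finrank K (LinearMap.range (shift f 1)))
    {r : V} (hr : r ≠ 0) (c : V →ₗ[K] K) (hc : c ≠ 0) :
    ∃ (v : V) (φ : V →ₗ[K] K), φ v = 1 ∧ φ (f v) = 1 ∧ φ r ≠ 0 ∧ c v ≠ 0 ∧ f v ≠ v ∧
      (∃ w, φ w = 0 ∧ φ (f w) ≠ 0) ∧
      (2 ≤ m → ¬ ∃ μ : K, μ ^ m = 1 ∧ ∀ w, φ w = 0 → f w - φ (f w) • f v = μ • w) ∧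
      (2 ≤ m → ¬ ∃ a : V, ∀ w, φ w = 0 → ∃ t : K, f w - φ (f w) • f v - w = t • a) := by
  classical
  set A := shift f 1 with hA
  have hAapp : ∀ x, A x = f x - x := fun x => by rw [hA, shift_apply, one_smul]
  set R := LinearMap.range A with hR
  -- the conditions on `v`
  set H := LinearMap.ker c with hH
  have hHne : H ≠ ⊤ := fun h => hc (LinearMap.ker_eq_top.mp h)
  set S := (K ∙ r).comap A with hS
  have hSne : S ≠ ⊤ := by
    intro h
    have : R ≤ K ∙ r := by
      rintro _ ⟨x, rfl⟩
      exact (h ▸ Submodule.mem_top : x ∈ S)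
    have := Submodule.finrank_mono this
    rw [finrank_span_singleton hr] at this
    omega
  have hEig1 : ∀ x, f x = x → x ∈ S := fun x hx => by
    show A x ∈ K ∙ r
    rw [hAapp, hx, sub_self]; exact zero_mem _
  have hbadne : ∀ μ, BadMul f m μ → 2 ≤ m → LinearMap.range (shift f μ) ≠ ⊤ := by
    intro μ hμ h2 h
    have := hμ.2.2
    rw [h, finrank_top, hm] at this
    omega
  obtain ⟨v, hcv, hSv, heig, hRv, hker2, hbad⟩ : ∃ v : V, c v ≠ 0 ∧ A v ∉ K ∙ r ∧
      (∀ ν : K, f v ≠ ν • v) ∧ (R ≠ ⊤ → v ∉ R) ∧
      (R ≠ ⊤ → m = 2 → A (A v) ≠ 0) ∧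
      (∀ μ, BadMul f m μ → 2 ≤ m → v ∉ LinearMap.range (shift f μ)) := by
    by_cases hRtop : R = ⊤
    · obtain ⟨W₁, W₂, hW₁, hW₂, hcov, hbads⟩ : ∃ W₁ W₂ : Submodule K V, W₁ ≠ ⊤ ∧ W₂ ≠ ⊤ ∧
          (∀ x ν, f x = ν • x → x ∈ W₁ ∨ x ∈ W₂) ∧
          (∀ μ, BadMul f m μ → 2 ≤ m → LinearMap.range (shift f μ) = W₁ ∨
            LinearMap.range (shift f μ) = W₂) := by
        by_cases hb : ∃ μ, BadMul f m μ ∧ 2 ≤ m
        · obtain ⟨a, ha, hm2⟩ := hb
          by_cases hb2 : ∃ μ, BadMul f m μ ∧ μ ≠ a
          · obtain ⟨b, hb, hba⟩ := hb2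
            refine ⟨_, _, hbadne a ha hm2, hbadne b hb hm2, fun x ν hx => ?_, fun μ hμ _ => ?_⟩
            · by_cases h : ν = a
              · exact Or.inr (eigen_mem_range f (h ▸ hba.symm) hx)
              · exact Or.inl (eigen_mem_range f h hx)
            · by_contra hh
              push Not at hh
              have h1 : μ ≠ a := fun e => hh.1 (e ▸ rfl)
              have h2 : μ ≠ b := fun e => hh.2 (e ▸ rfl)
              by_cases hm3 : m = 2
              · subst hm3
                exact h1 ((sq_eq_one_cases hμ.2.1 hμ.1).trans (sq_eq_one_cases ha.2.1 ha.1).symm)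
              have := sum_ker_three f h1 h2 hba.symm
              have e1 := finrank_ker f hm hμ
              have e2 := finrank_ker f hm ha
              have e3 := finrank_ker f hm hb
              omega
          · push Not at hb2
            refine ⟨_, LinearMap.ker (shift f a), hbadne a ha hm2, ?_, fun x ν hx => ?_,
              fun μ hμ _ => Or.inl (by rw [hb2 μ hμ])⟩
            · intro h
              exact hns ⟨a, fun x => sub_eq_zero.mp (LinearMap.congr_fun
                (LinearMap.ker_eq_top.mp h) x)⟩
            · by_cases h : ν = a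
              · exact Or.inr (by rw [LinearMap.mem_ker, shift_apply, hx, h, sub_self])
              · exact Or.inl (eigen_mem_range f h hx)
        · push Not at hb
          by_cases he : ∃ (x : V) (ν : K), x ≠ 0 ∧ f x = ν • x
          · obtain ⟨x₀, a, hx0, hxa⟩ := he
            refine ⟨_, LinearMap.ker (shift f a), range_ne_top f hx0 hxa, ?_, fun x ν hx => ?_,
              fun μ hμ h2 => absurd h2 (by have := hb μ hμ; omega)⟩
            · intro h
              exact hns ⟨a, fun x => sub_eq_zero.mp (LinearMap.congr_fun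
                (LinearMap.ker_eq_top.mp h) x)⟩
            · by_cases h : ν = a
              · exact Or.inr (by rw [LinearMap.mem_ker, shift_apply, hx, h, sub_self])
              · exact Or.inl (eigen_mem_range f h hx)
          · push Not at he
            refine ⟨H, H, hHne, hHne, fun x ν hx => ?_, fun μ hμ h2 => absurd h2 (by
              have := hb μ hμ; omega)⟩
            by_cases hx0 : x = 0
            · exact Or.inl (hx0 ▸ zero_mem _)
            · exact absurd hx (he x ν hx0)
      obtain ⟨v, hv⟩ := exists_notMem_list [H, S, W₁, W₂] (by simpa using h4) (by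
        simp [hHne, hSne, hW₁, hW₂])
      simp only [List.mem_cons, List.not_mem_nil, or_false, forall_eq_or_imp, forall_eq] at hv
      refine ⟨v, hv.1, hv.2.1, fun ν hν => ?_, fun h => absurd hRtop h,
        fun h => absurd hRtop h, fun μ hμ h2 => ?_⟩
      · rcases hcov v ν hν with h | h
        · exact hv.2.2.1 h
        · exact hv.2.2.2 h
      · rcases hbads μ hμ h2 with e | e <;> rw [e]
        · exact hv.2.2.1
        · exact hv.2.2.2
    · -- `f - 1` is singular
      have hE1 : 1 ≤ finrank K (LinearMap.ker A) := by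
        have h1 := LinearMap.finrank_range_add_finrank_ker A
        have h2 := Submodule.finrank_lt hRtop
        rw [← hR] at h1
        omega
      have huniq : ∀ a b, BadMul f m a → BadMul f m b → 2 ≤ m → a = b := by
        intro a b ha hb h2
        by_cases hm3 : m = 2
        · subst hm3
          exact (sq_eq_one_cases ha.2.1 ha.1).trans (sq_eq_one_cases hb.2.1 hb.1).symm
        by_contra hab
        have := sum_ker_three f hab ha.1 hb.1
        have e1 := finrank_ker f hm ha
        have e2 := finrank_ker f hm hb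
        rw [← hA] at this
        omega
      obtain ⟨I, hI, hIbad⟩ : ∃ I : Submodule K V, I ≠ ⊤ ∧
          ∀ μ, BadMul f m μ → 2 ≤ m → LinearMap.range (shift f μ) = I := by
        by_cases hb : ∃ μ, BadMul f m μ ∧ 2 ≤ m
        · obtain ⟨a, ha, h2⟩ := hb
          exact ⟨_, hbadne a ha h2, fun μ hμ h2 => by rw [huniq μ a hμ ha h2]⟩
        · exact ⟨H, hHne, fun μ hμ h2 => absurd ⟨μ, hμ, h2⟩ hb⟩
      have hcovR : ∀ v : V, v ∉ S → v ∉ R → ∀ ν : K, f v ≠ ν • v := by
        intro v h1 h2 ν hν
        by_cases h : ν = 1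
        · exact h1 (hEig1 v (by rw [hν, h, one_smul]))
        · exact h2 (eigen_mem_range f h hν)
      by_cases hm3 : m = 2
      · -- here we avoid `ker A²` as well
        have hA2 : LinearMap.ker (A.comp A) ≠ ⊤ := by
          intro h
          have hle : R ≤ LinearMap.ker A := by
            rintro _ ⟨x, rfl⟩
            exact LinearMap.congr_fun (LinearMap.ker_eq_top.mp h) x
          have h1 := Submodule.finrank_mono hle
          have h2 := LinearMap.finrank_range_add_finrank_ker A
          rw [← hR] at h2
          omega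
        by_cases hneg : (-1 : K) = 1
        · obtain ⟨v, hv⟩ := exists_notMem_list [H, S, R, LinearMap.ker (A.comp A)]
            (by simpa using h4) (by simp [hHne, hSne, hRtop, hA2])
          simp only [List.mem_cons, List.not_mem_nil, or_false, forall_eq_or_imp, forall_eq] at hv
          refine ⟨v, hv.1, hv.2.1, hcovR v hv.2.1 hv.2.2.1, fun _ => hv.2.2.1,
            fun _ _ h => hv.2.2.2 h, fun μ hμ _ => ?_⟩
          subst hm3
          exact absurd ((sq_eq_one_cases hμ.2.1 hμ.1).trans hneg) hμ.1
        · obtain ⟨v, hv⟩ := exists_notMem_list [H, S, R, LinearMap.ker (A.comp A), I]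
            (by simpa using five_le_of_neg_one_ne h4 hneg) (by simp [hHne, hSne, hRtop, hA2, hI])
          simp only [List.mem_cons, List.not_mem_nil, or_false, forall_eq_or_imp, forall_eq] at hv
          exact ⟨v, hv.1, hv.2.1, hcovR v hv.2.1 hv.2.2.1, fun _ => hv.2.2.1,
            fun _ _ h => hv.2.2.2.1 h, fun μ hμ h2 => hIbad μ hμ h2 ▸ hv.2.2.2.2⟩
      · obtain ⟨v, hv⟩ := exists_notMem_list [H, S, R, I] (by simpa using h4)
          (by simp [hHne, hSne, hRtop, hI])
        simp only [List.mem_cons, List.not_mem_nil, or_false, forall_eq_or_imp, forall_eq] at hv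
        exact ⟨v, hv.1, hv.2.1, hcovR v hv.2.1 hv.2.2.1, fun _ => hv.2.2.1,
          fun _ h => absurd h hm3, fun μ hμ h2 => hIbad μ hμ h2 ▸ hv.2.2.2⟩
  -- the functional
  have hfv : f v ≠ v := fun h => heig 1 (by rw [h, one_smul])
  have hAv : A v ≠ 0 := fun h => hSv (h ▸ zero_mem _)
  have hvu : v ∉ K ∙ A v := by
    intro h
    obtain ⟨t, ht⟩ := Submodule.mem_span_singleton.mp h
    by_cases ht0 : t = 0
    · rw [ht0, zero_smul] at ht
      exact hcv (by rw [← ht, map_zero])
    · refine heig (1 + t⁻¹) ?_
      have : A v = t⁻¹ • v := by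
        calc A v = t⁻¹ • (t • A v) := by rw [inv_smul_smul₀ ht0]
          _ = t⁻¹ • v := by rw [ht]
      rw [hAapp, sub_eq_iff_eq_add] at this
      rw [this, add_smul, one_smul, add_comm]
  have hru : r ∉ K ∙ A v := by
    intro h
    obtain ⟨t, ht⟩ := Submodule.mem_span_singleton.mp h
    have ht0 : t ≠ 0 := fun e => hr (by rw [← ht, e, zero_smul])
    exact hSv (Submodule.mem_span_singleton.mpr ⟨t⁻¹, by rw [← ht, inv_smul_smul₀ ht0]⟩)
  obtain ⟨y, hyR, hyu⟩ : ∃ y ∈ R, y ∉ K ∙ A v := by
    by_contra hh
    push Not at hh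
    have := Submodule.finrank_mono (show R ≤ K ∙ A v from hh)
    rw [finrank_span_singleton hAv] at this
    omega
  obtain ⟨z, hzu, hz⟩ : ∃ z, z ∉ K ∙ A v ∧
      ((R ≠ ⊤ → finrank K R = 2 → A z = 0) ∧ (R = ⊤ → m = 2 → A z = f v)) := by
    by_cases hRtop : R = ⊤
    · by_cases hm3 : m = 2
      · obtain ⟨z, hz⟩ : ∃ z, A z = f v := LinearMap.range_eq_top.mp hRtop (f v)
        refine ⟨z, fun h => ?_, fun h => absurd hRtop h, fun _ _ => hz⟩
        obtain ⟨t, rfl⟩ := Submodule.mem_span_singleton.mp h
        rw [map_smul] at hz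
        have ht0 : t ≠ 0 := fun e => heig 0 (by rw [← hz, e, zero_smul, zero_smul])
        -- `v` and `A v` span an invariant plane on which `f` has determinant one
        have hAu : A (A v) = t⁻¹ • (v + A v) := by
          calc A (A v) = t⁻¹ • (t • A (A v)) := by rw [inv_smul_smul₀ ht0]
            _ = t⁻¹ • f v := by rw [hz]
            _ = t⁻¹ • (v + A v) := by rw [hAapp]; abel_nf
        have hli : LinearIndependent K ![v, A v] := by
          rw [LinearIndependent.pair_iff]
          intro p q hpq
          by_cases hp : p = 0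
          · subst hp
            simp only [zero_smul, zero_add, smul_eq_zero, hAv, or_false] at hpq
            exact ⟨rfl, hpq⟩
          · refine absurd (Submodule.mem_span_singleton.mpr ⟨-(p⁻¹ * q), ?_⟩) hvu
            have : p • v = -(q • A v) := eq_neg_of_add_eq_zero_left hpq
            calc (-(p⁻¹ * q)) • A v = p⁻¹ • -(q • A v) := by
                  rw [smul_neg, smul_smul, neg_smul]
              _ = v := by rw [← this, inv_smul_smul₀ hp]
        obtain ⟨e, he⟩ := exists_linearIndependent_snoc_of_lt_finrank hli (by rw [hm]; omega)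
        let b : Basis (Fin 3) K V := basisOfLinearIndependentOfCardEqFinrank he (by
          rw [Fintype.card_fin, hm, hm3])
        have hb : (b : Fin 3 → V) = Fin.snoc ![v, A v] e :=
          coe_basisOfLinearIndependentOfCardEqFinrank _ _
        have hb0 : b 0 = v := by rw [hb]; rfl
        have hb1 : b 1 = A v := by rw [hb]; rfl
        have hf0 : f (b 0) = b 0 + b 1 := by rw [hb0, hb1, hAapp]; abel
        have hf1 : f (b 1) = t⁻¹ • b 0 + (1 + t⁻¹) • b 1 := by
          have h := hAapp (A v)
          rw [hAu] at h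
          rw [hb0, hb1, ← sub_add_cancel (f (A v)) (A v), ← h]
          module
        have hM := LinearMap.det_toMatrix b f
        rw [Matrix.det_fin_three] at hM
        simp only [LinearMap.toMatrix_apply, hf0, hf1, map_add, map_smul, Basis.repr_self,
          Finsupp.add_apply, Finsupp.smul_apply] at hM
        simp at hM
        have h22 : b.repr (f (b 2)) 2 = 1 := by
          rw [hdet] at hM
          linear_combination hM
        have hsub : R ≤ Submodule.span K {b 0, b 1} := by
          rintro _ ⟨x, rfl⟩
          have key : ∀ i, A (b i) ∈ Submodule.span K {b 0, b 1} := by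
            intro i
            fin_cases i
            · show A (b 0) ∈ _
              rw [hAapp, hf0, add_sub_cancel_left]
              exact Submodule.subset_span (by simp)
            · show A (b 1) ∈ _
              rw [hAapp, hf1]
              exact sub_mem (add_mem (Submodule.smul_mem _ _ (Submodule.subset_span (by simp)))
                (Submodule.smul_mem _ _ (Submodule.subset_span (by simp))))
                (Submodule.subset_span (by simp))
            · show A (b 2) ∈ _
              rw [← b.sum_repr (A (b 2)), Fin.sum_univ_three]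
              have : b.repr (A (b 2)) 2 = 0 := by
                rw [hAapp, map_sub, Finsupp.sub_apply, h22, Basis.repr_self,
                  Finsupp.single_eq_same, sub_self]
              rw [this, zero_smul, add_zero]
              exact add_mem (Submodule.smul_mem _ _ (Submodule.subset_span (by simp)))
                (Submodule.smul_mem _ _ (Submodule.subset_span (by simp)))
          rw [← b.sum_repr x, map_sum]
          exact sum_mem fun i _ => by rw [map_smul]; exact Submodule.smul_mem _ _ (key i)
        have h1 := Submodule.finrank_mono hsub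
        rw [hRtop, finrank_top, hm] at h1
        have h2 : finrank K (Submodule.span K ({b 0, b 1} : Set V)) ≤ 2 := by
          have := finrank_span_le_card (R := K) ({b 0, b 1} : Set V)
          refine this.trans ?_
          rw [Set.toFinset_card, ← Nat.card_eq_fintype_card, Nat.card_coe_set_eq]
          exact (Set.ncard_insert_le _ _).trans (by simp)
        omega
      · exact ⟨v, hvu, fun h => absurd hRtop h, fun _ h => absurd h hm3⟩
    · by_cases hrk : finrank K R = 2
      · have hk : ¬ LinearMap.ker A ≤ K ∙ A v := by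
          intro h
          have h1 := Submodule.finrank_mono h
          rw [finrank_span_singleton hAv] at h1
          have h2 := LinearMap.finrank_range_add_finrank_ker A
          rw [← hR, hrk, hm] at h2
          have hm3 : m = 2 := by
            have := Submodule.finrank_lt hRtop
            omega
          have heq : LinearMap.ker A = K ∙ A v :=
            Submodule.eq_of_le_of_finrank_eq h (by rw [finrank_span_singleton hAv]; omega)
          exact hker2 hRtop hm3 (LinearMap.mem_ker.mp (heq ▸ Submodule.mem_span_singleton_self _))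
        obtain ⟨z, hz, hzu⟩ := SetLike.not_le_iff_exists.mp hk
        exact ⟨z, hzu, fun _ _ => LinearMap.mem_ker.mp hz, fun h => absurd h hRtop⟩
      · exact ⟨v, hvu, fun _ h => absurd h hrk, fun h => absurd h hRtop⟩
  obtain ⟨φ, hφu, hφv, hφr, hφy, hφz⟩ := exists_functional h4 hvu hru hyu hzu
  have hφfv : φ (f v) = 1 := by
    have := hφu
    rw [hAapp, map_sub, hφv, sub_eq_zero] at this
    exact this
  have hφA : ∀ w, φ w = 0 → φ (f w) = φ (A w) := fun w hw => by rw [hAapp, map_sub, hw, sub_zero]
  have hc' : ∃ w, φ w = 0 ∧ φ (f w) ≠ 0 := by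
    obtain ⟨x, rfl⟩ := hyR
    refine ⟨x - φ x • v, by simp [hφv], ?_⟩
    rw [hφA _ (by simp [hφv]), map_sub, map_smul, map_sub, map_smul, hφu, smul_zero, sub_zero]
    exact hφy
  refine ⟨v, φ, hφv, hφfv, hφr, hcv, hfv, hc', fun h2 => ?_, fun h2 => ?_⟩
  · rintro ⟨μ, hμm, hμ⟩
    obtain ⟨w, hw, hw'⟩ := hc'
    have hfinj : Function.Injective f :=
      ((LinearMap.equivOfDetNeZero f (by rw [hdet]; exact one_ne_zero))).injective
    have hμ0 : μ ≠ 0 := fun e => by rw [e, zero_pow (by omega)] at hμm; exact zero_ne_one hμm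
    have hvI : v ∈ LinearMap.range (shift f μ) := by
      have h1 : f v ∈ LinearMap.range (shift f μ) := by
        refine ⟨(φ (f w))⁻¹ • w, ?_⟩
        rw [map_smul, shift_apply]
        have := hμ w hw
        rw [sub_eq_iff_eq_add] at this
        rw [show f w - μ • w = φ (f w) • f v by linear_combination (norm := module) this,
          inv_smul_smul₀ hw']
      have h3 : μ • v ∈ LinearMap.range (shift f μ) := by
        have := sub_mem h1 (LinearMap.mem_range_self (shift f μ) v)
        rwa [shift_apply, sub_sub_cancel] at this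
      simpa [inv_smul_smul₀ hμ0] using Submodule.smul_mem _ μ⁻¹ h3
    have hsub : LinearMap.range (shift f μ) ≤ Submodule.span K {f v, shift f μ v} := by
      rintro _ ⟨x, rfl⟩
      have hx : φ (x - φ x • v) = 0 := by simp [hφv]
      have h := hμ _ hx
      rw [sub_eq_iff_eq_add, add_comm, ← sub_eq_iff_eq_add, ← shift_apply, map_sub,
        map_smul, sub_eq_iff_eq_add] at h
      rw [h]
      exact add_mem (Submodule.smul_mem _ _ (Submodule.subset_span (by simp)))
        (Submodule.smul_mem _ _ (Submodule.subset_span (by simp)))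
    have hle : finrank K (LinearMap.range (shift f μ)) ≤ 2 := by
      refine (Submodule.finrank_mono hsub).trans ?_
      refine (finrank_span_le_card (R := K) ({f v, shift f μ v} : Set V)).trans ?_
      rw [Set.toFinset_card, ← Nat.card_eq_fintype_card, Nat.card_coe_set_eq]
      exact (Set.ncard_insert_le _ _).trans (by simp)
    by_cases hμ1 : μ = 1
    · subst hμ1
      have hne : R ≠ ⊤ := fun h => by
        rw [hR, hA] at h
        rw [h, finrank_top, hm] at hle
        omega
      exact hRv hne hvI
    by_cases hrk : finrank K (LinearMap.range (shift f μ)) = 2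
    · exact hbad μ ⟨hμ1, hμm, hrk⟩ h2 hvI
    have h1 : finrank K (LinearMap.range (shift f μ)) ≤ 1 := by omega
    have hv0 : v ≠ 0 := fun e => hcv (by rw [e, map_zero])
    have hrange : LinearMap.range (shift f μ) = K ∙ v :=
      (Submodule.eq_of_le_of_finrank_le ((Submodule.span_singleton_le_iff_mem _ _).mpr hvI)
        (by rw [finrank_span_singleton hv0]; exact h1)).symm
    obtain ⟨s, hs⟩ := Submodule.mem_span_singleton.mp
      (hrange ▸ LinearMap.mem_range_self (shift f μ) v : shift f μ v ∈ K ∙ v)
    exact heig (μ + s) (by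
      rw [shift_apply, eq_sub_iff_add_eq] at hs
      rw [← hs, add_smul, add_comm])
  · rintro ⟨a, ha⟩
    have hAW : ∀ w, φ w = 0 → A w ∈ Submodule.span K {f v, a} := by
      intro w hw
      obtain ⟨t, ht⟩ := ha w hw
      rw [sub_sub, sub_eq_iff_eq_add] at ht
      have : A w = t • a + φ (f w) • f v := by
        rw [hAapp]; linear_combination (norm := module) ht
      rw [this]
      exact add_mem (Submodule.smul_mem _ _ (Submodule.subset_span (by simp)))
        (Submodule.smul_mem _ _ (Submodule.subset_span (by simp)))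
    set W := LinearMap.ker φ with hW
    set P := Submodule.span K ({f v, a} : Set V) with hP
    have hPle : finrank K P ≤ 2 := by
      refine (finrank_span_le_card (R := K) ({f v, a} : Set V)).trans ?_
      rw [Set.toFinset_card, ← Nat.card_eq_fintype_card, Nat.card_coe_set_eq]
      exact (Set.ncard_insert_le _ _).trans (by simp)
    have hWsup : W ⊔ (K ∙ v) = ⊤ := by
      rw [eq_top_iff]
      intro x _
      exact Submodule.mem_sup.mpr ⟨x - φ x • v, by simp [hW, hφv], φ x • v,
        Submodule.smul_mem _ _ (Submodule.mem_span_singleton_self _), sub_add_cancel _ _⟩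
    have hRdim : finrank K R ≤ finrank K (W.map A) + 1 := by
      have : R = W.map A ⊔ (K ∙ A v) := by
        rw [hR, LinearMap.range_eq_map, ← hWsup, Submodule.map_sup, Submodule.map_span,
          Set.image_singleton]
      rw [this]
      refine (Submodule.finrank_add_le_finrank_add_finrank _ _).trans ?_
      rw [finrank_span_singleton hAv]
    by_cases hRtop : R = ⊤
    · have hWP : W.map A ≤ P := by
        rintro _ ⟨w, hw, rfl⟩
        exact hAW w hw
      have hRm : finrank K R = m + 1 := by rw [hRtop, finrank_top, hm]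
      have := Submodule.finrank_mono hWP
      have hm3 : m = 2 := by omega
      have heq : W.map A = P := Submodule.eq_of_le_of_finrank_le hWP (by omega)
      obtain ⟨w, hw, hwv⟩ : f v ∈ W.map A := heq ▸ Submodule.subset_span (by simp)
      have hinj := LinearMap.injective_iff_surjective.mpr (LinearMap.range_eq_top.mp hRtop)
      have : w = z := hinj (hwv.trans (hz.2 hRtop hm3).symm)
      exact hφz (this ▸ hw)
    · have hfvR : f v ∉ R := fun h => hRv hRtop (by
        have := sub_mem h (LinearMap.mem_range_self A v)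
        rwa [hAapp, sub_sub_cancel] at this)
      have hWP : W.map A ≤ R ⊓ P := by
        rintro _ ⟨w, hw, rfl⟩
        exact ⟨LinearMap.mem_range_self _ _, hAW w hw⟩
      have hmem : f v ∈ P := Submodule.subset_span (by simp)
      have hRP : R ⊓ P < P := lt_of_le_of_ne inf_le_right fun h => by
        rw [← h] at hmem; exact hfvR hmem.1
      have h1 := Submodule.finrank_lt_finrank_of_lt hRP
      have h3 := Submodule.finrank_mono hWP
      have hrk : finrank K R = 2 := by omega
      have hall : R ≤ W.map A := by
        rintro _ ⟨x, rfl⟩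
        refine ⟨x - (φ x / φ z) • z, by simp [hW, hφz], ?_⟩
        rw [map_sub, map_smul, hz.1 hRtop hrk, smul_zero, sub_zero]
      have := Submodule.finrank_mono hall
      omega

end CfsgLib.UnipProd
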